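import Cfsg.Agent.Lib.H29.SylNum
import Mathlib.GroupTheory.GroupAction.Quotient

/-! # Fixed points and orbits of a Sylow subgroup in a transitive group -/

set_option autoImplicit false

namespace H29.SylNum

open scoped BigOperators Classical Pointwise

variable {G : Type*} [Group G] (p : ℕ) [Finite G] [Fact p.Prime]

theorem res_top_cj (g : G) : cj g (res p (⊤ : Subgroup G)) = res p (⊤ : Subgroup G) := by
  rw [cj_res, cj_of_mem (Subgroup.mem_top g)]

theorem stab_cj {Ω : Type*} [MulAction G Ω] (g : G) (ω : Ω) :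
    cj g (MulAction.stabilizer G ω) = MulAction.stabilizer G (g • ω) := by
  ext x
  rw [mem_cj, MulAction.mem_stabilizer_iff, MulAction.mem_stabilizer_iff, mul_smul, mul_smul, inv_smul_eq_iff]

noncomputable local instance instFintypeSub' : Fintype (Subgroup G) := Fintype.ofFinite _

/-- A Sylow `p`-subgroup of a transitive group fixes at most the fraction `(p-1)/(2p-1)` of the points. -/
theorem fix_le {Ω : Type*} [MulAction G Ω] [FaithfulSMul G Ω] [Finite Ω]
    (htrans : MulAction.IsPretransitive G Ω) (hpG : p ∣ Nat.card G) (P : Sylow p G) :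
    (2 * (p : ℤ) - 1) * (Nat.card (MulAction.fixedPoints (P : Subgroup G) Ω) : ℤ) ≤ ((p : ℤ) - 1) * (Nat.card Ω : ℤ) := by
  have hpp : p.Prime := Fact.out
  have : Fintype Ω := Fintype.ofFinite Ω
  set N := res p (⊤ : Subgroup G) with hN
  have hPN : (P : Subgroup G) ≤ N := (sylow_le_res p P).mpr le_top
  have hNN : res p N = N := res_res p _
  let K : Ω → Subgroup G := fun ω => res p (MulAction.stabilizer G ω)
  let w : Subgroup G → ℕ := fun L => (Finset.univ.filter (fun ω : Ω => K ω = L ∧ ¬ p ∣ L.index)).card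
  have hcl := claim_of_res p (Nat.card N) N rfl hNN w (by
    intro L hL
    obtain ⟨ω, hω⟩ := Finset.card_ne_zero.mp hL
    rw [Finset.mem_filter] at hω
    obtain ⟨_, hω1, hω2⟩ := hω
    refine ⟨?_, ?_, ?_, hω2⟩
    · rw [← hω1]; exact res_mono p le_top
    · intro h
      -- N fixes every point
      have h1 : ∀ ω' : Ω, N ≤ MulAction.stabilizer G ω' := by
        intro ω'
        obtain ⟨g, rfl⟩ := MulAction.exists_smul_eq G ω ω'
        rw [← stab_cj]
        have e : cj g N = N := by rw [hN]; exact res_top_cj p g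
        have e2 : N ≤ MulAction.stabilizer G ω := by
          rw [← h, ← hω1]; exact res_le p _
        have e3 := cj_mono (g := g) e2
        rwa [e] at e3
      have h2 : N = ⊥ := by
        rw [eq_bot_iff]
        intro x hx
        rw [Subgroup.mem_bot]
        apply FaithfulSMul.eq_of_smul_eq_smul (α := Ω)
        intro ω'
        rw [one_smul]
        exact h1 ω' hx
      have h3 : (P : Subgroup G) = ⊥ := by
        rw [eq_bot_iff, ← h2]; exact hPN
      have h4 := P.not_dvd_index
      rw [h3, Subgroup.index_bot] at h4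
      exact h4 hpG
    · rw [← hω1]; exact res_res p _) (by
    intro n _ L
    show (Finset.univ.filter (fun ω : Ω => K ω = cj n L ∧ ¬ p ∣ (cj n L).index)).card =
      (Finset.univ.filter (fun ω : Ω => K ω = L ∧ ¬ p ∣ L.index)).card
    symm
    apply Finset.card_bij (fun ω _ => n • ω)
    · intro ω hω
      rw [Finset.mem_filter] at hω ⊢
      refine ⟨Finset.mem_univ _, ?_, ?_⟩
      · show res p (MulAction.stabilizer G (n • ω)) = cj n L
        rw [← hω.2.1, ← stab_cj, ← cj_res]
      · rw [cj_index]; exact hω.2.2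
    · intro ω _ ω' _ h
      exact smul_left_cancel n h
    · intro ω hω
      rw [Finset.mem_filter] at hω
      refine ⟨n⁻¹ • ω, ?_, smul_inv_smul n ω⟩
      rw [Finset.mem_filter]
      refine ⟨Finset.mem_univ _, ?_, ?_⟩
      · apply cj_injective n
        show cj n (res p (MulAction.stabilizer G (n⁻¹ • ω))) = cj n L
        rw [cj_res, stab_cj, smul_inv_smul]
        exact hω.2.1
      · rw [← cj_index n]; exact hω.2.2) P hPN
  have h1 := hcl.1
  -- compute the sum
  set Ω' := Finset.univ.filter (fun ω : Ω => ¬ p ∣ (K ω).index) with hΩ'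
  have h2 : ∑ L : Subgroup G, (w L : ℤ) * c p P L = ∑ ω ∈ Ω', c p P (K ω) := by
    rw [← Finset.sum_fiberwise Ω' K (fun ω => c p P (K ω))]
    apply Finset.sum_congr rfl
    intro L _
    rw [Finset.sum_congr rfl (g := fun _ => c p P L), Finset.sum_const, nsmul_eq_mul]
    · congr 2
      show (Finset.univ.filter (fun ω : Ω => K ω = L ∧ ¬ p ∣ L.index)).card = _
      congr 1
      ext ω
      rw [hΩ', Finset.mem_filter, Finset.mem_filter, Finset.mem_filter]
      constructor
      · rintro ⟨_, h3, h4⟩
        exact ⟨⟨Finset.mem_univ _, by rw [h3]; exact h4⟩, h3⟩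
      · rintro ⟨⟨_, h4⟩, h3⟩
        exact ⟨Finset.mem_univ _, h3, by rw [← h3]; exact h4⟩
    · intro ω hω
      rw [Finset.mem_filter] at hω
      rw [hω.2]
  rw [h2] at h1
  have h3 : ∑ ω ∈ Ω', c p P (K ω) = ((p : ℤ) - 1) * (Ω'.card : ℤ) -
      (2 * (p : ℤ) - 1) * (Nat.card (MulAction.fixedPoints (P : Subgroup G) Ω) : ℤ) := by
    unfold c
    rw [Finset.sum_sub_distrib, Finset.sum_const, nsmul_eq_mul, ← Finset.sum_filter, Finset.sum_const, nsmul_eq_mul]
    have h4 : (Ω'.filter (fun ω => (P : Subgroup G) ≤ K ω)).card = Nat.card (MulAction.fixedPoints (P : Subgroup G) Ω) := by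
      have h5 : (Ω'.filter (fun ω => (P : Subgroup G) ≤ K ω)) = Finset.univ.filter (fun ω : Ω => ω ∈ MulAction.fixedPoints (P : Subgroup G) Ω) := by
        ext ω
        rw [Finset.mem_filter, hΩ', Finset.mem_filter, Finset.mem_filter]
        constructor
        · rintro ⟨_, h6⟩
          refine ⟨Finset.mem_univ _, ?_⟩
          rw [MulAction.mem_fixedPoints]
          intro x
          exact (h6.trans (res_le p _)) x.2
        · rintro ⟨_, h6⟩
          rw [MulAction.mem_fixedPoints] at h6
          have h7 : (P : Subgroup G) ≤ K ω := by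
            rw [sylow_le_res]
            intro x hx
            exact h6 ⟨x, hx⟩
          exact ⟨⟨Finset.mem_univ _, not_dvd_of_sylow_le p P h7⟩, h7⟩
      rw [h5]
      rw [Nat.card_eq_fintype_card, ← Fintype.card_subtype]
    rw [h4]; ring
  rw [h3] at h1
  have h4 : (Ω'.card : ℤ) ≤ (Nat.card Ω : ℤ) := by
    rw [Nat.card_eq_fintype_card]
    exact_mod_cast Finset.card_le_univ Ω'
  have h5 : (2 : ℤ) ≤ p := by exact_mod_cast hpp.two_le
  nlinarith [mul_le_mul_of_nonneg_left h4 (by linarith : (0 : ℤ) ≤ (p : ℤ) - 1)]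

/-- counting the orbits of a `p`-group -/
theorem orbits_le {Ω : Type*} [MulAction G Ω] [Finite Ω] (Q : Subgroup G) (hQ : IsPGroup p Q) :
    p * Nat.card (MulAction.orbitRel.Quotient Q Ω) ≤
      Nat.card Ω + (p - 1) * Nat.card (MulAction.fixedPoints Q Ω) := by
  have hpp : p.Prime := Fact.out
  have : Fintype Ω := Fintype.ofFinite Ω
  have : Fintype (MulAction.orbitRel.Quotient Q Ω) := Fintype.ofFinite _
  have h1 : Nat.card Ω = ∑ q : MulAction.orbitRel.Quotient Q Ω, Nat.card (MulAction.orbit Q q.out) := by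
    rw [Nat.card_congr (MulAction.selfEquivSigmaOrbits Q Ω), Nat.card_sigma]
  set T := Finset.univ.filter (fun q : MulAction.orbitRel.Quotient Q Ω => Nat.card (MulAction.orbit Q q.out) = 1) with hT
  have h2 : T.card ≤ Nat.card (MulAction.fixedPoints Q Ω) := by
    have hfix : ∀ q ∈ T, q.out ∈ MulAction.fixedPoints Q Ω := by
      intro q hq
      rw [hT, Finset.mem_filter] at hq
      rw [MulAction.mem_fixedPoints_iff_card_orbit_eq_one]
      rw [← Nat.card_eq_fintype_card]; exact hq.2
    let f : T → MulAction.fixedPoints Q Ω := fun q => ⟨q.1.out, hfix q.1 q.2⟩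
    have hf : Function.Injective f := by
      intro q q' h
      apply Subtype.ext
      have h3 : q.1.out = q'.1.out := congrArg Subtype.val h
      rw [← Quotient.out_eq q.1, ← Quotient.out_eq q'.1, h3]
    have h3 := Nat.card_le_card_of_injective f hf
    rwa [Nat.card_eq_fintype_card, Fintype.card_coe] at h3
  have h3 : ∀ q : MulAction.orbitRel.Quotient Q Ω, p ≤ Nat.card (MulAction.orbit Q q.out) + (if q ∈ T then (p - 1) else 0) := by
    intro q
    obtain ⟨n, hn⟩ := hQ.card_orbit (q.out)
    by_cases hq : q ∈ T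
    · rw [if_pos hq]
      rw [hT, Finset.mem_filter] at hq
      rw [hq.2]
      omega
    · rw [if_neg hq, add_zero, hn]
      have hn0 : n ≠ 0 := by
        rintro rfl
        rw [pow_zero] at hn
        exact hq (by rw [hT, Finset.mem_filter]; exact ⟨Finset.mem_univ _, hn⟩)
      exact Nat.le_self_pow hn0 p
  have h4 := Finset.sum_le_sum (fun q (_ : q ∈ (Finset.univ : Finset (MulAction.orbitRel.Quotient Q Ω))) => h3 q)
  rw [Finset.sum_const, Finset.sum_add_distrib, ← h1, Finset.sum_ite_mem, Finset.univ_inter, Finset.sum_const,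
    smul_eq_mul, smul_eq_mul, Finset.card_univ, ← Nat.card_eq_fintype_card] at h4
  calc p * Nat.card (MulAction.orbitRel.Quotient Q Ω) = Nat.card (MulAction.orbitRel.Quotient Q Ω) * p := by ring
    _ ≤ Nat.card Ω + T.card * (p - 1) := h4
    _ ≤ Nat.card Ω + (p - 1) * Nat.card (MulAction.fixedPoints Q Ω) := by
        rw [mul_comm (p - 1)]
        exact Nat.add_le_add_left (Nat.mul_le_mul_right _ h2) _

end H29.SylNum
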